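import Mathlib
import Cfsg.Agent.Lib.Helper58.SpecProd.Defs

/-!
# SpecProd (S2510/S2513, helper58): package [Z]

`z = diag(ζ, …, ζ, ζ^(-(n-1)))` has determinant `1`, `z ^ r = 1` and is not scalar.
-/

set_option autoImplicit false

universe u

namespace Cfsg.Agent.Lib.Helper61.SpecProd

open Cfsg.Agent.Lib.Helper58.SpecProd

/-- the diagonal entries of the element `z` -/
def zDiag {F : Type u} [Field F] (n : ℕ) (u : Fˣ) (i : Fin n) : F :=
  if i.val = n - 1 then ((u⁻¹ ^ (n - 1) : Fˣ) : F) else (u : F)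

theorem zDiag_det {F : Type u} [Field F] (n : ℕ) (hn : 2 ≤ n) (u : Fˣ) :
    (Matrix.diagonal (zDiag n u)).det = 1 := by
  have hlast : ((⟨n - 1, by omega⟩ : Fin n)).val = n - 1 := rfl
  rw [Matrix.det_diagonal,
    ← Finset.mul_prod_erase Finset.univ (zDiag n u) (Finset.mem_univ (⟨n - 1, by omega⟩ : Fin n))]
  have h1 : ∏ x ∈ Finset.univ.erase (⟨n - 1, by omega⟩ : Fin n), zDiag n u x
      = (u : F) ^ (n - 1) := by
    rw [Finset.prod_congr rfl (fun x hx => ?_), Finset.prod_const,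
      Finset.card_erase_of_mem (Finset.mem_univ _), Finset.card_univ, Fintype.card_fin]
    have hx' := Finset.ne_of_mem_erase hx
    unfold zDiag
    rw [if_neg]
    intro h
    exact hx' (Fin.ext h)
  rw [h1]
  have h2 : zDiag n u (⟨n - 1, by omega⟩ : Fin n) = ((u⁻¹ ^ (n - 1) : Fˣ) : F) := if_pos rfl
  rw [h2, ← Units.val_pow_eq_pow_val, ← Units.val_mul, ← mul_pow, inv_mul_cancel, one_pow,
    Units.val_one]

/-- the element `z` of `SL_n(F)` -/
def zSL {F : Type u} [Field F] (n : ℕ) (hn : 2 ≤ n) (u : Fˣ) :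
    Matrix.SpecialLinearGroup (Fin n) F :=
  ⟨Matrix.diagonal (zDiag n u), zDiag_det n hn u⟩

theorem zSL_pow {F : Type u} [Field F] (n : ℕ) (hn : 2 ≤ n) (u : Fˣ) (r : ℕ) (hur : u ^ r = 1) :
    zSL n hn u ^ r = 1 := by
  apply Subtype.ext
  rw [Matrix.SpecialLinearGroup.coe_pow]
  show (Matrix.diagonal (zDiag n u)) ^ r = 1
  rw [Matrix.diagonal_pow, ← Matrix.diagonal_one]
  congr 1
  funext i
  show zDiag n u i ^ r = 1
  unfold zDiag
  by_cases hi : i.val = n - 1
  · rw [if_pos hi, ← Units.val_pow_eq_pow_val, ← pow_mul, mul_comm, pow_mul, inv_pow, hur]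
    simp
  · rw [if_neg hi, ← Units.val_pow_eq_pow_val, hur, Units.val_one]

theorem zSL_not_center {F : Type u} [Field F] (n : ℕ) (hn : 2 ≤ n) (u : Fˣ)
    (hun : u ^ n ≠ 1) :
    zSL n hn u ∉ Subgroup.center (Matrix.SpecialLinearGroup (Fin n) F) := by
  intro hc
  rw [Matrix.SpecialLinearGroup.mem_center_iff] at hc
  obtain ⟨c, -, hc⟩ := hc
  have h0 := congrFun (congrFun hc (⟨0, by omega⟩ : Fin n)) (⟨0, by omega⟩ : Fin n)
  have h1 := congrFun (congrFun hc (⟨n - 1, by omega⟩ : Fin n)) (⟨n - 1, by omega⟩ : Fin n)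
  have e0 : (zSL n hn u).1 (⟨0, by omega⟩ : Fin n) (⟨0, by omega⟩ : Fin n) = (u : F) := by
    show Matrix.diagonal (zDiag n u) _ _ = _
    rw [Matrix.diagonal_apply_eq]
    unfold zDiag
    rw [if_neg]
    show (0 : ℕ) ≠ n - 1
    omega
  have e1 : (zSL n hn u).1 (⟨n - 1, by omega⟩ : Fin n) (⟨n - 1, by omega⟩ : Fin n)
      = ((u⁻¹ ^ (n - 1) : Fˣ) : F) := by
    show Matrix.diagonal (zDiag n u) _ _ = _
    rw [Matrix.diagonal_apply_eq]
    exact if_pos rfl
  rw [Matrix.scalar_apply, Matrix.diagonal_apply_eq] at h0 h1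
  have h2 : (u : F) = ((u⁻¹ ^ (n - 1) : Fˣ) : F) := by
    rw [← e0, ← e1]
    exact h0.symm.trans h1
  have h3 : u = u⁻¹ ^ (n - 1) := Units.ext h2
  apply hun
  have h4 : u ^ n = u * u ^ (n - 1) := by
    rw [← pow_succ']
    congr 1
    omega
  rw [h4]
  nth_rewrite 1 [h3]
  rw [← mul_pow, inv_mul_cancel, one_pow]

/-- an element of order `r` in the unit group of a finite field with `r ∣ q - 1` -/
theorem exists_unit_order {F : Type u} [Field F] [Fintype F] (r : ℕ) (hr : r.Prime)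
    (hrq : r ∣ Fintype.card F - 1) : ∃ u : Fˣ, orderOf u = r := by
  have hrf : Fact r.Prime := ⟨hr⟩
  have hcard : Nat.card Fˣ = Fintype.card F - 1 := by
    rw [Nat.card_units, Nat.card_eq_fintype_card]
  exact exists_prime_orderOf_dvd_card' (G := Fˣ) r (by rw [hcard]; exact hrq)

theorem pkgZ : PkgZ.{u} := by
  intro F _ _ n r hn hr hrq hrn
  have hrf : Fact r.Prime := ⟨hr⟩
  obtain ⟨u, hu⟩ := exists_unit_order (F := F) r hr hrq
  have hur : u ^ r = 1 := by rw [← hu]; exact pow_orderOf_eq_one u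
  have hun : u ^ n ≠ 1 := by
    intro h
    have h1 := orderOf_dvd_of_pow_eq_one h
    rw [hu] at h1
    exact hrn h1
  refine ⟨QuotientGroup.mk (zSL n hn u), ?_⟩
  apply orderOf_eq_prime
  · rw [← QuotientGroup.mk_pow, zSL_pow n hn u r hur]
    rfl
  · intro h
    exact zSL_not_center n hn u hun ((QuotientGroup.eq_one_iff _).1 h)

end Cfsg.Agent.Lib.Helper61.SpecProd
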