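import Mathlib
import Cfsg.Agent.Lib.Helper58.SpecProd.Defs
import Cfsg.Agent.Lib.Helper61.SpecProd.Z

/-!
# SpecProd (S2510/S2513, helper58): package [UE]

`u = 1 + N`, `N` the nilpotent shift on the first `n - 1` coordinates, has order `p ^ T₀`
(`T₀` least with `n ≤ p ^ T₀`) when `n - 1` is not a power of `p`; it commutes with the diagonal
element `z` of order `r` of package [Z], and no power of `u` other than `1` is scalar.
-/

set_option autoImplicit false

universe u

namespace Cfsg.Agent.Lib.Helper61.SpecProd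

open Cfsg.Agent.Lib.Helper58.SpecProd

/-- the shift by `k` on the first `n - 1` coordinates -/
def shiftMat (F : Type u) [Field F] (n k : ℕ) : Matrix (Fin n) (Fin n) F :=
  Matrix.of fun i j => if j.val = i.val + k ∧ j.val < n - 1 then 1 else 0

theorem shiftMat_apply {F : Type u} [Field F] (n k : ℕ) (i j : Fin n) :
    shiftMat F n k i j = if j.val = i.val + k ∧ j.val < n - 1 then 1 else 0 := rfl

theorem shiftMat_mul {F : Type u} [Field F] (n a b : ℕ) :
    shiftMat F n a * shiftMat F n b = shiftMat F n (a + b) := by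
  ext i j
  rw [Matrix.mul_apply]
  simp only [shiftMat_apply]
  by_cases h : j.val = i.val + (a + b) ∧ j.val < n - 1
  · rw [if_pos h]
    have hl : i.val + a < n := by omega
    rw [Finset.sum_eq_single (⟨i.val + a, hl⟩ : Fin n)]
    · rw [if_pos ⟨rfl, by show i.val + a < n - 1; omega⟩,
        if_pos ⟨by show j.val = i.val + a + b; omega, h.2⟩, one_mul]
    · intro l _ hl'
      rw [if_neg, zero_mul]
      rintro ⟨h1, -⟩
      exact hl' (Fin.ext h1)
    · intro h'; exact absurd (Finset.mem_univ _) h'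
  · rw [if_neg h]
    apply Finset.sum_eq_zero
    intro l _
    by_cases h1 : l.val = i.val + a ∧ l.val < n - 1
    · rw [if_pos h1, one_mul, if_neg]
      rintro ⟨h2, h3⟩
      exact h ⟨by omega, h3⟩
    · rw [if_neg h1, zero_mul]

theorem shiftMat_pow {F : Type u} [Field F] (n k : ℕ) (hk : 1 ≤ k) :
    shiftMat F n 1 ^ k = shiftMat F n k := by
  induction k, hk using Nat.le_induction with
  | base => rw [pow_one]
  | succ k hk ih => rw [pow_succ, ih, shiftMat_mul]

theorem shiftMat_eq_zero {F : Type u} [Field F] (n k : ℕ) (hk : n - 1 ≤ k) :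
    shiftMat F n k = 0 := by
  ext i j
  rw [shiftMat_apply, if_neg]
  · rfl
  · omega

theorem shiftMat_apply_zero {F : Type u} [Field F] (n k : ℕ) (hk : k < n - 1) :
    shiftMat F n k (⟨0, by omega⟩ : Fin n) (⟨k, by omega⟩ : Fin n) = 1 := by
  rw [shiftMat_apply, if_pos]
  exact ⟨by simp, hk⟩

theorem uMat_det {F : Type u} [Field F] (n : ℕ) :
    (1 + shiftMat F n 1 : Matrix (Fin n) (Fin n) F).det = 1 := by
  rw [Matrix.det_of_isUpperTriangular]
  · apply Finset.prod_eq_one
    intro i _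
    rw [Matrix.add_apply, Matrix.one_apply_eq, shiftMat_apply, if_neg, add_zero]
    omega
  · intro i j hij
    have hij' : j.val < i.val := hij
    have hne : i ≠ j := fun h => by rw [h] at hij'; exact lt_irrefl _ hij'
    rw [Matrix.add_apply, Matrix.one_apply_ne hne, shiftMat_apply, if_neg, add_zero]
    omega

/-- the unipotent element of `SL_n(F)` -/
def uSL (F : Type u) [Field F] (n : ℕ) : Matrix.SpecialLinearGroup (Fin n) F :=
  ⟨1 + shiftMat F n 1, uMat_det n⟩

theorem uSL_pow {F : Type u} [Field F] (p : ℕ) [Fact p.Prime] [CharP F p] (n : ℕ) (hn : 1 ≤ n)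
    (t : ℕ) :
    ((uSL F n ^ p ^ t : Matrix.SpecialLinearGroup (Fin n) F) : Matrix (Fin n) (Fin n) F) =
      1 + shiftMat F n (p ^ t) := by
  have hne : NeZero n := ⟨by omega⟩
  rw [Matrix.SpecialLinearGroup.coe_pow]
  show (1 + shiftMat F n 1) ^ p ^ t = 1 + shiftMat F n (p ^ t)
  rw [add_pow_char_pow_of_commute p t (Commute.one_left _), one_pow,
    shiftMat_pow _ _ (Nat.one_le_pow _ _ (Fact.out : p.Prime).pos)]

theorem uSL_comm_zSL {F : Type u} [Field F] (n : ℕ) (hn : 2 ≤ n) (v : Fˣ) :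
    Commute (uSL F n) (zSL n hn v) := by
  apply Subtype.ext
  rw [Matrix.SpecialLinearGroup.coe_mul, Matrix.SpecialLinearGroup.coe_mul]
  show (1 + shiftMat F n 1) * Matrix.diagonal (zDiag n v) =
    Matrix.diagonal (zDiag n v) * (1 + shiftMat F n 1)
  rw [add_mul, mul_add, one_mul, mul_one]
  congr 1
  ext i j
  rw [Matrix.mul_diagonal, Matrix.diagonal_mul, shiftMat_apply]
  by_cases h : j.val = i.val + 1 ∧ j.val < n - 1
  · rw [if_pos h, one_mul, mul_one]
    unfold zDiag
    rw [if_neg (by omega), if_neg (by omega)]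
  · rw [if_neg h, zero_mul, mul_zero]

theorem pkgUEx : PkgUEx.{u} := by
  intro F _ _ p a n r hp hcard hn hr hrq hrn hnp
  have hpf : Fact p.Prime := ⟨hp⟩
  have hrf : Fact r.Prime := ⟨hr⟩
  have hchar : CharP F p := charP_of_card_eq_prime_pow hcard
  -- `r ≠ p`
  have hq2 : 2 ≤ p ^ a := by rw [← hcard]; exact Fintype.one_lt_card
  have ha : a ≠ 0 := by
    rintro rfl
    simp at hq2
  have hrp : p ≠ r := by
    rintro rfl
    have h1 : p ∣ p ^ a := dvd_pow_self p ha
    have h2 : p ∣ p ^ a - 1 := by rw [← hcard]; exact hrq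
    have h3 := Nat.dvd_sub h1 h2
    have h4 : p ^ a - (p ^ a - 1) = 1 := by omega
    rw [h4] at h3
    exact hp.one_lt.ne' (Nat.dvd_one.1 h3)
  -- `T₀`
  have hex : ∃ T : ℕ, n ≤ p ^ T := ⟨n, (Nat.lt_pow_self hp.one_lt).le⟩
  obtain ⟨T₀, hT₀, hmin⟩ : ∃ T₀ : ℕ, n ≤ p ^ T₀ ∧ ∀ T < T₀, ¬ n ≤ p ^ T :=
    ⟨Nat.find hex, Nat.find_spec hex, fun T hT => Nat.find_min hex hT⟩
  have hT₀1 : 1 ≤ T₀ := by
    by_contra h
    have h0 : T₀ = 0 := by omega
    rw [h0, pow_zero] at hT₀
    omega
  obtain ⟨S, rfl⟩ : ∃ S, T₀ = S + 1 := ⟨T₀ - 1, by omega⟩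
  have hS1 : p ^ S < n := by
    have := hmin S (by omega)
    omega
  have hS2 : p ^ S ≠ n - 1 := fun h => hnp ⟨S, h.symm⟩
  have hS3 : p ^ S < n - 1 := by omega
  have hS0 : 1 ≤ p ^ S := Nat.one_le_pow _ _ hp.pos
  -- the unit of order `r`
  obtain ⟨v, hv⟩ := exists_unit_order (F := F) r hr hrq
  have hvr : v ^ r = 1 := by rw [← hv]; exact pow_orderOf_eq_one v
  have hvn : v ^ n ≠ 1 := by
    intro h
    have h1 := orderOf_dvd_of_pow_eq_one h
    rw [hv] at h1
    exact hrn h1
  -- orders in `PSL`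
  have hy : orderOf (QuotientGroup.mk (zSL n hn v) :
      Matrix.ProjectiveSpecialLinearGroup (Fin n) F) = r := by
    apply orderOf_eq_prime
    · rw [← QuotientGroup.mk_pow, zSL_pow n hn v r hvr]
      rfl
    · intro h
      exact zSL_not_center n hn v hvn ((QuotientGroup.eq_one_iff _).1 h)
  have hx : orderOf (QuotientGroup.mk (uSL F n) :
      Matrix.ProjectiveSpecialLinearGroup (Fin n) F) = p ^ (S + 1) := by
    apply orderOf_eq_prime_pow
    · intro h
      rw [← QuotientGroup.mk_pow] at h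
      have hc := (QuotientGroup.eq_one_iff _).1 h
      rw [Matrix.SpecialLinearGroup.mem_center_iff] at hc
      obtain ⟨c, -, hc⟩ := hc
      have h0 := congrFun (congrFun hc (⟨0, by omega⟩ : Fin n)) (⟨p ^ S, by omega⟩ : Fin n)
      rw [uSL_pow p n (by omega) S, Matrix.add_apply, shiftMat_apply_zero n (p ^ S) hS3,
        Matrix.scalar_apply, Matrix.diagonal_apply_ne, Matrix.one_apply_ne, zero_add] at h0
      · exact zero_ne_one h0
      · intro h'
        have := congrArg Fin.val h'
        simp at this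
        omega
      · intro h'
        have := congrArg Fin.val h'
        simp at this
        omega
    · rw [← QuotientGroup.mk_pow]
      have h1 : uSL F n ^ p ^ (S + 1) = 1 := by
        apply Subtype.ext
        rw [uSL_pow p n (by omega) (S + 1), shiftMat_eq_zero n _ (by omega), add_zero]
        rfl
      rw [h1]
      rfl
  have hcomm : Commute (QuotientGroup.mk (uSL F n) :
      Matrix.ProjectiveSpecialLinearGroup (Fin n) F) (QuotientGroup.mk (zSL n hn v)) := by
    have h1 := uSL_comm_zSL n hn v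
    show QuotientGroup.mk (uSL F n) * QuotientGroup.mk (zSL n hn v) =
      QuotientGroup.mk (zSL n hn v) * QuotientGroup.mk (uSL F n)
    rw [← QuotientGroup.mk_mul, ← QuotientGroup.mk_mul, h1.eq]
  refine ⟨S + 1, QuotientGroup.mk (uSL F n) * QuotientGroup.mk (zSL n hn v), hT₀, ?_⟩
  rw [hcomm.orderOf_mul_eq_mul_orderOf_of_coprime, hx, hy]
  rw [hx, hy]
  exact Nat.Coprime.pow_left _ ((Nat.coprime_primes hp hr).2 hrp)

end Cfsg.Agent.Lib.Helper61.SpecProd
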